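import Cfsg.Agent.Lib.ConjFunctor.Reach
import Cfsg.Agent.Lib.ConjFunctor.Transfer
import Cfsg.Agent.Lib.ConjFunctor.Reduce

/-!
Glauberman's descent for a pair consisting of a functor `W` above the centres and a central functor `V`: only
the normalizers of the subgroups above `Z(P)` are needed.
-/

set_option autoImplicit false
set_option linter.style.haveILetI false

namespace CfsgLib.ConjFunctor

variable {G : Type*} [Group G] [Finite G] {p : ℕ} [Fact p.Prime]

/-- `H` contains `Z(P)` and lies in `P`. -/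
def IsZType (P H : Subgroup G) : Prop := P ⊓ Subgroup.centralizer (P : Set G) ≤ H ∧ H ≤ P

/-- `Rel` is carried inside `N = N(U)` and its Sylow subgroup `R` by `N(W R)` and `C(V R)`. -/
def PairLocal (Rel : Subgroup G → G → Prop) (W V : Subgroup G → Subgroup G) (N R : Subgroup G) : Prop :=
  (∀ y ∈ N ⊓ Subgroup.normalizer (W R : Set G), ∀ X ≤ R, cj y X ≤ R → Rel X y) →
    (∀ y ∈ N ⊓ Subgroup.centralizer (V R : Set G), ∀ X ≤ R, cj y X ≤ R → Rel X y) →
    ∀ B ≤ R, ∀ h ∈ N, cj h B ≤ R → Rel B h

/-- **The descent for a central pair.** -/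
theorem pair_local_to_global (P : Sylow p G) (hdiv : p ∣ Nat.card G) {Rel : Subgroup G → G → Prop}
    (hR : IsFusionRel (P : Subgroup G) Rel) {W V : Subgroup G → Subgroup G}
    (hW : Cfsg.IsConjugacyFunctor p W)
    (hWZ : ∀ H : Subgroup G, IsPGroup p H → H ⊓ Subgroup.centralizer (H : Set G) ≤ W H)
    (hVmono : ∀ H K : Subgroup G, IsPGroup p H → IsPGroup p K → H ≠ ⊥ → K ≠ ⊥ →
      H ⊓ Subgroup.centralizer (H : Set G) ≤ K ⊓ Subgroup.centralizer (K : Set G) → V H ≤ V K)
    (hrefl : ∀ B h, B ≤ (P : Subgroup G) → (∀ a ∈ B, h * a * h⁻¹ = a) → Rel B h)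
    (hbaseW : ∀ y ∈ Subgroup.normalizer (W (P : Subgroup G) : Set G), ∀ X ≤ (P : Subgroup G),
      cj y X ≤ (P : Subgroup G) → Rel X y)
    (hbaseV : ∀ y ∈ Subgroup.centralizer (V (P : Subgroup G) : Set G), ∀ X ≤ (P : Subgroup G),
      cj y X ≤ (P : Subgroup G) → Rel X y)
    (hloc : ∀ U : Subgroup G, U ≤ (P : Subgroup G) → (∃ g : G, IsZType (P : Subgroup G) (cj g U)) →
      ¬ p ∣ ((P : Subgroup G) ⊓ Subgroup.normalizer (U : Set G)).relIndex (Subgroup.normalizer (U : Set G)) →
      PairLocal Rel W V (Subgroup.normalizer (U : Set G)) ((P : Subgroup G) ⊓ Subgroup.normalizer (U : Set G))) :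
    ∀ B h, B ≤ (P : Subgroup G) → cj h B ≤ (P : Subgroup G) → Rel B h := by
  set S := (P : Subgroup G) with hSdef
  set Z := S ⊓ Subgroup.centralizer (S : Set G) with hZ
  have hS : IsPGroup p S := P.2
  have hS0 : S ≠ ⊥ := by
    intro h
    have := P.dvd_card_of_dvd_card hdiv
    rw [← hSdef, h, Subgroup.card_bot] at this
    exact (Fact.out : p.Prime).one_lt.ne' (Nat.dvd_one.1 this)
  have hZ0 : Z ≠ ⊥ := by
    intro h
    haveI : Nontrivial S := (Subgroup.nontrivial_iff_ne_bot S).2 hS0
    haveI := hS.center_nontrivial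
    obtain ⟨⟨z, hz⟩, hz1⟩ := exists_ne (1 : Subgroup.center S)
    refine hz1 (Subtype.ext (Subtype.ext ?_))
    have : (z : G) ∈ Z := ⟨z.2, Subgroup.mem_centralizer_iff.2 fun s hs =>
      congrArg Subtype.val (Subgroup.mem_center_iff.1 hz ⟨s, hs⟩)⟩
    rw [h, Subgroup.mem_bot] at this
    exact this
  have hZR : ∀ R, Z ≤ R → R ≤ S → Z ≤ R ⊓ Subgroup.centralizer (R : Set G) := fun R h1 h2 =>
    le_inf h1 (inf_le_right.trans (Subgroup.centralizer_le h2))
  have hVR : ∀ R, Z ≤ R → R ≤ S → Subgroup.centralizer (V R : Set G) ≤ Subgroup.centralizer (V S : Set G) :=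
    fun R h1 h2 => Subgroup.centralizer_le (hVmono S R hS (hS.to_le h2) hS0
      (fun h => hZ0 (le_bot_iff.1 (h ▸ h1))) (hZR R h1 h2))
  have hG := isExtremalSet_extremal (S := P)
  have hZN : ∀ U : Subgroup G, U ≤ S → Z ≤ S ⊓ Subgroup.normalizer (U : Set G) := fun U hU =>
    le_inf inf_le_left ((inf_le_right.trans (Subgroup.centralizer_le hU)).trans (Subgroup.centralizer_le_normalizer _))
  refine fusion_induction hS hR hG fun U hU IH x hx => ?_
  by_cases hZU : Z ≤ U
  · have claim : ∀ k R, Z ≤ R → R ≤ S → Nat.card S ≤ Nat.card R + k → (R = S ∨ Nat.card U < Nat.card R) →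
        ∀ y ∈ Subgroup.normalizer (W R : Set G), ∀ X ≤ R, cj y X ≤ R → Rel X y := by
      intro k
      induction k using Nat.strong_induction_on with
      | h k ih =>
        intro R hZR' hRS hk hbig y hy X hX hyX
        by_cases hR' : R = S
        · subst hR'; exact hbaseW y hy X hX hyX
        have hUR : Nat.card U < Nat.card R := hbig.resolve_left hR'
        have hRp : IsPGroup p R := hS.to_le hRS
        have hWR : W R ≤ R := (hW R hRp).1
        set R' := S ⊓ Subgroup.normalizer (W R : Set G) with hR'def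
        have hRR' : R < R' :=
          (lt_inf_normalizer hS (lt_of_le_of_ne hRS hR')).trans_le
            (inf_le_inf_left _ (normalizer_le_normalizer_functor hW hRp))
        have hcard : Nat.card R < Nat.card R' := Set.Finite.card_lt_card (Set.toFinite _) hRR'
        obtain ⟨g, hg, hgle⟩ := hG.exists_cj_normalizer hS (hWR.trans hRS)
        set U'' := cj g (W R) with hU''
        set R'' := S ⊓ Subgroup.normalizer (U'' : Set G) with hR''def
        have hR'' : Nat.card R' ≤ Nat.card R'' := by
          rw [← card_cj g R']; exact Subgroup.card_le_of_le hgle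
        have hR''S : Nat.card R'' ≤ Nat.card S := Subgroup.card_le_of_le inf_le_left
        have hZR'' : Z ≤ R'' := hZN U'' hg.1
        have rg : ∀ Z ≤ R', Rel Z g := fun Z hZ =>
          hR.mono R' Z g hZ inf_le_left (hgle.trans inf_le_left)
            (IH R' g inf_le_left (hgle.trans inf_le_left) (by omega))
        have rg' : ∀ Z ≤ cj g R', Rel Z g⁻¹ := fun Z hZ => by
          refine hR.mono (cj g R') Z g⁻¹ hZ (hgle.trans inf_le_left) (by rw [cj_inv_cj]; exact inf_le_left)
            (IH _ g⁻¹ (hgle.trans inf_le_left) (by rw [cj_inv_cj]; exact inf_le_left) ?_)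
          rw [card_cj]; omega
        have hX' : X ≤ R' := hX.trans hRR'.le
        have hyX' : cj y X ≤ R' := hyX.trans hRR'.le
        set y' := g * y * g⁻¹ with hy'
        have hy'mem : y' ∈ Subgroup.normalizer (U'' : Set G) := by
          rw [hU'', ← cj_normalizer]; exact conj_mem_cj hy
        have e1 : cj y' (cj g X) = cj g (cj y X) := by
          rw [← cj_mul, ← cj_mul, hy', inv_mul_cancel_right]
        have hZtype : ∃ g' : G, IsZType S (cj g' U'') := by
          refine ⟨g⁻¹, ?_⟩
          rw [hU'', cj_inv_cj]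
          exact ⟨(hZR R hZR' hRS).trans (hWZ R hRp), hWR.trans hRS⟩
        have ry' : Rel (cj g X) y' := by
          refine hloc U'' hg.1 hZtype hg.2 ?_ ?_ (cj g X) ((cj_mono g hX').trans hgle) y' hy'mem
            (by rw [e1]; exact (cj_mono g hyX').trans hgle)
          · intro y'' hy'' X'' hX'' hyX''
            exact ih (Nat.card S - Nat.card R'') (by omega) R'' hZR'' inf_le_left (by omega)
              (Or.inr (by omega)) y'' hy''.2 X'' hX'' hyX''
          · intro y'' hy'' X'' hX'' hyX''
            exact hbaseV y'' (hVR R'' hZR'' inf_le_left hy''.2) X'' (hX''.trans inf_le_left)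
              (hyX''.trans inf_le_left)
        have : g⁻¹ * (y' * g) = y := by rw [hy']; group
        rw [← this]
        have hXS : X ≤ S := hX.trans hRS
        refine hR.comp X (y' * g) g⁻¹ hXS ?_ (hR.comp X g y' hXS ?_ (rg X hX') ry') ?_
        · rw [cj_mul, e1]; exact ((cj_mono g hyX').trans hgle).trans inf_le_left
        · exact ((cj_mono g hX').trans hgle).trans inf_le_left
        · rw [cj_mul, e1]; exact rg' _ (cj_mono g hyX')
    have hRU : U ≤ S ⊓ Subgroup.normalizer (U : Set G) := le_inf hU.1 Subgroup.le_normalizer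
    refine hloc U hU.1 ⟨1, by rw [cj_one]; exact ⟨hZU, hU.1⟩⟩ hU.2 ?_ ?_ U hRU x hx
      (by rw [cj_eq_self_iff.mpr hx]; exact hRU)
    · intro y hy X hX hyX
      refine claim (Nat.card S) _ (hZN U hU.1) inf_le_left (Nat.le_add_left _ _) ?_ y hy.2 X hX hyX
      by_cases hUS' : U = S
      · exact Or.inl (le_antisymm inf_le_left (hUS'.ge.trans hRU))
      · exact Or.inr (Set.Finite.card_lt_card (Set.toFinite _)
          (lt_inf_normalizer hS (lt_of_le_of_ne hU.1 hUS')))
    · intro y hy X hX hyX
      exact hbaseV y (hVR _ (hZN U hU.1) inf_le_left hy.2) X (hX.trans inf_le_left) (hyX.trans inf_le_left)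
  · -- Frattini: replace `U` by `U C_S(U)`
    set C := Subgroup.centralizer (U : Set G) with hC
    set T := S ⊓ C with hT
    have hTi : ¬ p ∣ T.relIndex C := by
      have h := not_dvd_relIndex_inf (R := S ⊓ Subgroup.normalizer (U : Set G)) (H := Subgroup.normalizer (U : Set G))
        (L := C) hS.to_inf_left inf_le_right hU.2 (Subgroup.centralizer_le_normalizer _) ?_
      · rwa [inf_assoc, inf_eq_right.2 (Subgroup.centralizer_le_normalizer _)] at h
      · intro n hn
        refine cj_eq_self_iff.1 ?_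
        show (Subgroup.centralizer (U : Set G)).map (MulAut.conj n).toMonoidHom = _
        refine Subgroup.eq_of_le_of_card_ge ?_ (card_cj n _).ge
        rintro _ ⟨c, hc, rfl⟩
        refine Subgroup.mem_centralizer_iff.2 fun u hu => ?_
        have h1 := Subgroup.mem_centralizer_iff.1 hc _ ((Subgroup.mem_normalizer_iff''.1 hn u).1 hu)
        show u * (n * c * n⁻¹) = n * c * n⁻¹ * u
        calc u * (n * c * n⁻¹) = n * ((n⁻¹ * u * n) * c) * n⁻¹ := by group
          _ = n * c * n⁻¹ * u := by rw [h1]; group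
    have hxC : cj x C ≤ C := by
      rintro _ ⟨c, hc, rfl⟩
      refine Subgroup.mem_centralizer_iff.2 fun u hu => ?_
      have h1 := Subgroup.mem_centralizer_iff.1 hc _ ((Subgroup.mem_normalizer_iff''.1 hx u).1 hu)
      show u * (x * c * x⁻¹) = x * c * x⁻¹ * u
      calc u * (x * c * x⁻¹) = x * ((x⁻¹ * u * x) * c) * x⁻¹ := by group
        _ = x * c * x⁻¹ * u := by rw [h1]; group
    have hxCeq : cj x C = C := Subgroup.eq_of_le_of_card_ge hxC (card_cj x C).ge
    obtain ⟨c, hc, hcT⟩ := exists_cj_eq (H := C) (isPGroup_cj (hS.to_inf_left (K := C)) x)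
      ((cj_mono x inf_le_right).trans hxC) (by have := not_dvd_relIndex_cj hTi x; rwa [hxCeq] at this) (hS.to_inf_left (K := C)) inf_le_right hTi
    rw [← hT] at hcT
    set n := c * x with hn
    have hnU : cj n U = U := by
      rw [hn, cj_mul, cj_eq_self_iff.2 hx, cj_eq_self_iff.2 (Subgroup.centralizer_le_normalizer _ hc)]
    have hnU' : cj n (U ⊔ T) = U ⊔ T := by
      show Subgroup.map _ _ = _
      rw [Subgroup.map_sup]
      exact congrArg₂ (· ⊔ ·) hnU (by rw [hn]; exact (cj_mul c x T).trans hcT)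
    have hUT : U ⊔ T ≤ S := sup_le hU.1 inf_le_left
    have hlt : U < U ⊔ T := lt_of_le_not_ge le_sup_left fun hle => hZU
      ((le_inf inf_le_left (inf_le_right.trans (Subgroup.centralizer_le hU.1))).trans (le_sup_right.trans hle))
    have hn' : Rel U n := hR.mono (U ⊔ T) U n le_sup_left hUT (hnU'.trans_le hUT)
      (IH (U ⊔ T) n hUT (hnU'.trans_le hUT) (Set.Finite.card_lt_card (Set.toFinite _) hlt))
    have : c⁻¹ * n = x := by rw [hn, inv_mul_cancel_left]
    rw [← this]
    refine hR.comp U n c⁻¹ hU.1 (hnU.trans_le hU.1) hn' ?_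
    rw [hnU]
    refine hrefl U c⁻¹ hU.1 fun a ha => ?_
    have h1 := Subgroup.mem_centralizer_iff.1 (C.inv_mem hc) a ha
    rw [← h1, mul_inv_cancel_right]

end CfsgLib.ConjFunctor
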