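import Cfsg.Agent.Lib.ConjFunctor.CentralPair
import Cfsg.Agent.Lib.FusionBasics.Group

/-!
Control of strong fusion and of transfer by a pair of functors, in the word form.
-/

set_option autoImplicit false
set_option linter.style.haveILetI false

namespace CfsgLib.ConjFunctor

variable {G : Type*} [Group G]

theorem prod_take_chain {n : ℕ} (c : Fin (n + 1) → G) (h0 : c 0 = 1) :
    ∀ (k : ℕ) (hk : k ≤ n), ((List.ofFn fun i : Fin n => c i.castSucc * (c i.succ)⁻¹).take k).prod =
      (c ⟨k, Nat.lt_succ_of_le hk⟩)⁻¹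
  | 0, _ => by simp [show (⟨0, Nat.lt_succ_of_le (Nat.zero_le n)⟩ : Fin (n + 1)) = 0 from rfl, h0]
  | k + 1, hk => by
    rw [List.prod_take_succ _ k (by simp; omega), prod_take_chain c h0 k (by omega), List.getElem_ofFn]
    simp [Fin.castSucc, Fin.succ]

theorem reach_of_word {𝒩 : Set (Subgroup G)} {Q B : Subgroup G} {n : ℕ} (b : Fin n → G)
    (hb : ∀ i, ∃ N ∈ 𝒩, b i ∈ N)
    (hle : ∀ k, k ≤ n → ∀ x ∈ B, (((List.ofFn b).take k).prod)⁻¹ * x * ((List.ofFn b).take k).prod ∈ Q)
    {h : G} (he : ∀ x ∈ B, ((List.ofFn b).prod)⁻¹ * x * (List.ofFn b).prod = h * x * h⁻¹) :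
    Reach 𝒩 Q B h := by
  refine reach_chain Q n B h (fun i => (((List.ofFn b).take i.val).prod)⁻¹) (by simp) (fun i => ?_) (fun i => ?_) ?_
  · obtain ⟨N, hN, hbN⟩ := hb i
    refine ⟨N, hN, ?_⟩
    simp only [Fin.val_succ, Fin.val_castSucc]
    rw [List.prod_take_succ _ _ (by simp), List.getElem_ofFn]
    simpa using hbN
  · rintro _ ⟨x, hx, rfl⟩
    simpa using hle i.val (Nat.le_of_lt_succ i.2) x hx
  · intro x hx
    rw [Fin.val_last, List.take_of_length_le (by simp), inv_inv]
    exact he x hx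

variable [Finite G] {p : ℕ} [Fact p.Prime]

/-- Moving a local hypothesis from `N(H)` to a conjugate. -/
theorem exists_transport {W V : Subgroup G → Subgroup G} (hW : Cfsg.IsConjugacyFunctor p W)
    (hV : Cfsg.IsConjugacyFunctor p V) (P : Sylow p G) {U : Subgroup G} {g : G} {H Q : Subgroup G}
    (hH : cj g U = H)
    (hi : ¬ p ∣ ((P : Subgroup G) ⊓ Subgroup.normalizer (U : Set G)).relIndex (Subgroup.normalizer (U : Set G)))
    (hQN : Q ≤ Subgroup.normalizer (H : Set G)) (hQ : IsPGroup p Q)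
    (hQi : ¬ p ∣ Q.relIndex (Subgroup.normalizer (H : Set G))) :
    ∃ k : G, cj k (Subgroup.normalizer (U : Set G)) = Subgroup.normalizer (H : Set G) ∧
      cj k ((P : Subgroup G) ⊓ Subgroup.normalizer (U : Set G)) = Q ∧
      cj k (Subgroup.normalizer (U : Set G) ⊓
          Subgroup.normalizer (W ((P : Subgroup G) ⊓ Subgroup.normalizer (U : Set G)) : Set G)) =
        Subgroup.normalizer (H : Set G) ⊓ Subgroup.normalizer (W Q : Set G) ∧
      cj k (Subgroup.normalizer (U : Set G) ⊓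
          Subgroup.centralizer (V ((P : Subgroup G) ⊓ Subgroup.normalizer (U : Set G)) : Set G)) =
        Subgroup.normalizer (H : Set G) ⊓ Subgroup.centralizer (V Q : Set G) := by
  set R := (P : Subgroup G) ⊓ Subgroup.normalizer (U : Set G) with hR
  have hRp : IsPGroup p R := P.2.to_inf_left
  have hgN : cj g (Subgroup.normalizer (U : Set G)) = Subgroup.normalizer (H : Set G) := hH ▸ cj_normalizer g U
  obtain ⟨m, hm, hmQ⟩ := exists_cj_eq (H := Subgroup.normalizer (H : Set G)) (isPGroup_cj hRp g)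
    (hgN ▸ cj_mono g inf_le_right) (by have := not_dvd_relIndex_cj hi g; rwa [hgN] at this) hQ hQN hQi
  have hkN : cj (m * g) (Subgroup.normalizer (U : Set G)) = Subgroup.normalizer (H : Set G) := by
    rw [cj_mul, hgN, cj_eq_self_of_mem hm]
  have hkR : cj (m * g) R = Q := by rw [cj_mul, hmQ]
  have hkW : W Q = cj (m * g) (W R) := by rw [← hkR]; exact (hW R hRp).2.2 _
  have hkV : V Q = cj (m * g) (V R) := by rw [← hkR]; exact (hV R hRp).2.2 _
  refine ⟨m * g, hkN, hkR, ?_, ?_⟩
  · rw [cj_inf, hkN, cj_normalizer, hkW]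
  · rw [cj_inf, hkN, hkV]
    exact congrArg (Subgroup.normalizer (H : Set G) ⊓ ·) (FusionBasics.map_conj_centralizer (m * g) (V R))

end CfsgLib.ConjFunctor
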